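import Cfsg.Agent.H389.R.Ctx
import Cfsg.Agent.S0029
import Cfsg.Agent.S1288
import Cfsg.Agent.Lib.FrattiniBasic

/-!
# S3530, Lemma X: the two-step case (`S` an `a`-group acting on the `b`-group `W`)
-/

set_option autoImplicit false
set_option linter.unusedSectionVars false

namespace Cfsg.Agent.H984.S3530.LemX

open Subgroup
open scoped commutatorElement

universe u

/-- the statement of the core lemma -/
def Core : Prop :=
  ∀ {Γ : Type u} [Group Γ] [Finite Γ] {V A P : Subgroup Γ} {a b p q : ℕ} (_ : a.Prime) (_ : b.Prime)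
    (_ : a ≠ b) (_ : p.Prime) (_ : q.Prime) (_ : p ≠ q) (_ : a ≠ p) (_ : a ≠ q) (_ : b ≠ p) (_ : b ≠ q)
    (_ : IsPGroup b V) (_ : ∀ x ∈ V, ∀ y ∈ V, x * y = y * x) (_ : IsPGroup a A)
    (_ : ∀ x ∈ A, ∀ y ∈ A, x * y = y * x) (_ : ∀ x ∈ A, x ^ a = 1) (_ : A ≠ ⊥)
    (_ : A ≤ normalizer (V : Set Γ)) (_ : A ⊓ centralizer (V : Set Γ) = ⊥)
    (_ : P ≤ normalizer (V : Set Γ)) (_ : P ≤ normalizer (A : Set Γ)) {x : Γ} (_ : x ∈ P)
    (_ : orderOf x = p * q) (_ : V ⊓ centralizer {x} = ⊥) (_ : A ⊓ centralizer {x} = ⊥)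
    (_ : ∀ C ≤ P, (∀ g ∈ P, g * x ^ p * g⁻¹ ∈ C ∨ g * x ^ q * g⁻¹ ∈ C) → C = P), False

variable {X : Type u} [Group X] [Finite X]

/-- a fixed point free automorphism is fixed point free on quotients -/
theorem mem_of_comm {W N : Subgroup X} {x : X} (hNW : N ≤ W) (hxN : x ∈ normalizer (N : Set X))
    (hfix : W ⊓ centralizer {x} = ⊥) {w : X} (hw : w ∈ W) (hwN : w⁻¹ * (x * w * x⁻¹) ∈ N) : w ∈ N := by
  have hconj : ∀ n ∈ N, x * n * x⁻¹ ∈ N := fun n hn => (mem_normalizer_iff.1 hxN n).1 hn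
  let φ : N → N := fun n => ⟨(n : X)⁻¹ * (x * n * x⁻¹), N.mul_mem (N.inv_mem n.2) (hconj n n.2)⟩
  have hinj : Function.Injective φ := by
    intro n n' h
    have h1 : (n : X)⁻¹ * (x * n * x⁻¹) = (n' : X)⁻¹ * (x * n' * x⁻¹) := congrArg Subtype.val h
    have h2 : (n : X) * (n' : X)⁻¹ ∈ W ⊓ centralizer {x} := by
      refine ⟨hNW (N.mul_mem n.2 (N.inv_mem n'.2)), mem_centralizer_singleton_iff.2 ?_⟩
      have e1 : x * n * x⁻¹ = n * ((n : X)⁻¹ * (x * n * x⁻¹)) := by group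
      have e2 : x * n' * x⁻¹ = n' * ((n : X)⁻¹ * (x * n * x⁻¹)) := by rw [h1]; group
      have e3 : x * (n * (n' : X)⁻¹) * x⁻¹ = (x * n * x⁻¹) * (x * n' * x⁻¹)⁻¹ := by group
      have e4 : x * (n * (n' : X)⁻¹) * x⁻¹ = n * (n' : X)⁻¹ := by
        rw [e3, e1, e2]; group
      exact (mul_inv_eq_iff_eq_mul.1 e4).symm
    rw [hfix, mem_bot] at h2
    exact Subtype.ext (mul_inv_eq_one.1 h2)
  obtain ⟨n, hn⟩ := (Finite.injective_iff_surjective.1 hinj) ⟨_, hwN⟩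
  have h1 : (n : X)⁻¹ * (x * n * x⁻¹) = w⁻¹ * (x * w * x⁻¹) := congrArg Subtype.val hn
  have h2 : w * (n : X)⁻¹ ∈ W ⊓ centralizer {x} := by
    refine ⟨W.mul_mem hw (W.inv_mem (hNW n.2)), mem_centralizer_singleton_iff.2 ?_⟩
    have e1 : x * w * x⁻¹ = w * (w⁻¹ * (x * w * x⁻¹)) := by group
    have e2 : x * n * x⁻¹ = n * (w⁻¹ * (x * w * x⁻¹)) := by rw [← h1]; group
    have e3 : x * (w * (n : X)⁻¹) * x⁻¹ = (x * w * x⁻¹) * (x * n * x⁻¹)⁻¹ := by group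
    have e4 : x * (w * (n : X)⁻¹) * x⁻¹ = w * (n : X)⁻¹ := by
      rw [e3, e1, e2]; group
    exact (mul_inv_eq_iff_eq_mul.1 e4).symm
  rw [hfix, mem_bot, mul_inv_eq_one] at h2
  rw [h2]
  exact n.2

theorem inf_eq_bot {a b : ℕ} (ha : a.Prime) (hb : b.Prime) (hab : a ≠ b) {S W : Subgroup X} (hS : IsPGroup a S)
    (hW : IsPGroup b W) {z : X} (hzS : z ∈ S) (hzW : z ∈ W) : z = 1 := by
  obtain ⟨m, hm⟩ := hS ⟨z, hzS⟩
  obtain ⟨n, hn⟩ := hW ⟨z, hzW⟩
  have hm' : z ^ a ^ m = 1 := congrArg Subtype.val hm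
  have hn' : z ^ b ^ n = 1 := congrArg Subtype.val hn
  have h1 := Nat.dvd_gcd (orderOf_dvd_of_pow_eq_one hm') (orderOf_dvd_of_pow_eq_one hn')
  have h2 : Nat.gcd (a ^ m) (b ^ n) = 1 := Nat.Coprime.pow m n ((Nat.coprime_primes ha hb).2 hab)
  rw [h2, Nat.dvd_one, orderOf_eq_one_iff] at h1
  exact h1

/-- conjugation by an element of the normalizer -/
theorem conj_mem {H : Subgroup X} {g : X} (hg : g ∈ normalizer (H : Set X)) {h : X} (hh : h ∈ H) :
    g * h * g⁻¹ ∈ H := (mem_normalizer_iff.1 hg h).1 hh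

theorem mem_normalizer_of {H : Subgroup X} {g : X} (hg : ∀ h ∈ H, g * h * g⁻¹ ∈ H) :
    g ∈ normalizer (H : Set X) := by
  have hinj : Function.Injective (fun h : H => (⟨g * h * g⁻¹, hg h h.2⟩ : H)) := by
    intro h h' e
    have e1 : g * (h : X) * g⁻¹ = g * h' * g⁻¹ := congrArg Subtype.val e
    exact Subtype.ext (mul_left_cancel (mul_right_cancel e1))
  have hsurj := Finite.injective_iff_surjective.1 hinj
  rw [mem_normalizer_iff]
  intro h
  refine ⟨hg h, fun hh => ?_⟩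
  obtain ⟨h', e⟩ := hsurj ⟨_, hh⟩
  have e1 : g * (h' : X) * g⁻¹ = g * h * g⁻¹ := congrArg Subtype.val e
  rw [← mul_left_cancel (mul_right_cancel e1)]
  exact h'.2

/-- the image of a subgroup of `M` -/
def im (M N : Subgroup X) [(N.subgroupOf M).Normal] (H : Subgroup X) : Subgroup (M ⧸ N.subgroupOf M) :=
  (H.subgroupOf M).map (QuotientGroup.mk' (N.subgroupOf M))

section im

variable {M N : Subgroup X} [(N.subgroupOf M).Normal]

/-- the image of an element -/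
def mk (N : Subgroup X) [(N.subgroupOf M).Normal] (m : M) : M ⧸ N.subgroupOf M := QuotientGroup.mk' (N.subgroupOf M) m

theorem mem_im {H : Subgroup X} {γ : M ⧸ N.subgroupOf M} :
    γ ∈ im M N H ↔ ∃ m : M, (m : X) ∈ H ∧ mk N m = γ := Iff.rfl

theorem mk_mul (m m' : M) : mk N m * mk N m' = mk N (m * m') := (map_mul _ _ _).symm

theorem mk_inv (m : M) : (mk N m)⁻¹ = mk N m⁻¹ := (map_inv _ _).symm

theorem mk_pow (m : M) (n : ℕ) : mk N m ^ n = mk N (m ^ n) := (map_pow _ _ _).symm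

theorem mk_eq_one {m : M} : mk N m = 1 ↔ (m : X) ∈ N := by
  show (QuotientGroup.mk' (N.subgroupOf M)) m = 1 ↔ _
  rw [QuotientGroup.mk'_apply, QuotientGroup.eq_one_iff, mem_subgroupOf]

theorem mk_eq {m m' : M} : mk N m = mk N m' ↔ (m : X)⁻¹ * m' ∈ N := by
  rw [← inv_mul_eq_one, mk_inv, mk_mul, mk_eq_one]
  rfl

theorem im_isPGroup {a : ℕ} {H : Subgroup X} (h : IsPGroup a H) : IsPGroup a (im M N H) :=
  (h.comap_subtype (H := H) (K := M)).map _

end im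

theorem cent_conj {W : Subgroup X} {g z : X} (hg : g ∈ normalizer (W : Set X)) (hz : z ∈ centralizer (W : Set X)) :
    g * z * g⁻¹ ∈ centralizer (W : Set X) := by
  rw [mem_centralizer_iff] at hz ⊢
  intro w hw
  have h1 : g⁻¹ * w * g⁻¹⁻¹ ∈ W := conj_mem (inv_mem hg) hw
  have h2 := hz _ h1
  rw [inv_inv] at h2
  have h3 : w * (g * z * g⁻¹) = g * (g⁻¹ * w * g * z) * g⁻¹ := by group
  rw [h3, h2]
  group

/-- **The two-step case.** -/
theorem step (hcore : Core.{u}) {S W P : Subgroup X} {a b p q : ℕ} (ha : a.Prime) (hb : b.Prime)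
    (hab : a ≠ b) (hp : p.Prime) (hq : q.Prime) (hpq : p ≠ q) (hap : a ≠ p) (haq : a ≠ q) (hbp : b ≠ p) (hbq : b ≠ q)
    (hS : IsPGroup a S) (hW : IsPGroup b W) (hSW : S ≤ normalizer (W : Set X))
    (hPS : P ≤ normalizer (S : Set X)) (hPW : P ≤ normalizer (W : Set X)) {x : X} (hxP : x ∈ P)
    (hx : orderOf x = p * q) (hxS : S ⊓ centralizer {x} = ⊥) (hxW : W ⊓ centralizer {x} = ⊥)
    (hP : ∀ C ≤ P, (∀ g ∈ P, g * x ^ p * g⁻¹ ∈ C ∨ g * x ^ q * g⁻¹ ∈ C) → C = P) :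
    S ≤ centralizer (W : Set X) := by
  by_contra hcon
  have haF : Fact a.Prime := ⟨ha⟩
  have hbF : Fact b.Prime := ⟨hb⟩
  obtain ⟨Φ, hΦ⟩ : ∃ Φ : Subgroup X, Φ = (frattini W).map W.subtype := ⟨_, rfl⟩
  obtain ⟨S0, hS0⟩ : ∃ S0 : Subgroup X, S0 = S ⊓ centralizer (W : Set X) := ⟨_, rfl⟩
  obtain ⟨N, hN⟩ : ∃ N : Subgroup X, N = S0 ⊔ Φ := ⟨_, rfl⟩
  have hΦW : Φ ≤ W := by rw [hΦ]; exact map_subtype_le _
  have hΦnorm : ∀ H : Subgroup X, H ≤ normalizer (W : Set X) → H ≤ normalizer (Φ : Set X) := by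
    intro H hH
    rw [hΦ]
    exact Cfsg.Agent.S1288.le_normalizer_map_of_characteristic hH _
  have hS0S : S0 ≤ S := by rw [hS0]; exact inf_le_left
  have hS0W : S0 ≤ centralizer (W : Set X) := by rw [hS0]; exact inf_le_right
  have hcomm : ∀ s ∈ S0, ∀ w ∈ W, s * w = w * s := fun s hs w hw =>
    ((mem_centralizer_iff.1 (hS0W hs)) w hw).symm
  have hS0Φ : S0 ≤ normalizer (Φ : Set X) := hΦnorm _ (hS0S.trans hSW)
  have hNelt : ∀ n ∈ N, ∃ s ∈ S0, ∃ f ∈ Φ, n = s * f := by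
    intro n hn
    have h1 : n ∈ ((S0 ⊔ Φ : Subgroup X) : Set X) := by rw [← hN]; exact hn
    rw [coe_mul_of_left_le_normalizer_right _ _ hS0Φ] at h1
    obtain ⟨s, hs, f, hf, rfl⟩ := Set.mem_mul.1 h1
    exact ⟨s, hs, f, hf, rfl⟩
  have hΦN : Φ ≤ N := by rw [hN]; exact le_sup_right
  have hS0N : S0 ≤ N := by rw [hN]; exact le_sup_left
  have hNW : ∀ w ∈ W, w ∈ N → w ∈ Φ := by
    intro w hw hwN
    obtain ⟨s, hs, f, hf, rfl⟩ := hNelt w hwN
    have h1 : s ∈ W := by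
      have := W.mul_mem hw (W.inv_mem (hΦW hf))
      rwa [mul_inv_cancel_right] at this
    rw [inf_eq_bot ha hb hab hS hW (hS0S hs) h1, one_mul]
    exact hf
  have hNS : ∀ s ∈ S, s ∈ N → s ∈ S0 := by
    intro s' hs' hsN
    obtain ⟨s, hs, f, hf, rfl⟩ := hNelt s' hsN
    have h1 : f ∈ S := by
      have := S.mul_mem (S.inv_mem (hS0S hs)) hs'
      rwa [inv_mul_cancel_left] at this
    rw [inf_eq_bot ha hb hab hS hW h1 (hΦW hf), mul_one]
    exact hs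
  have hnorm : ∀ g : X, (∀ s ∈ S0, g * s * g⁻¹ ∈ S0) → g ∈ normalizer (Φ : Set X) → g ∈ normalizer (N : Set X) := by
    intro g h1 h2
    refine mem_normalizer_of fun n hn => ?_
    obtain ⟨s, hs, f, hf, rfl⟩ := hNelt n hn
    have : g * (s * f) * g⁻¹ = (g * s * g⁻¹) * (g * f * g⁻¹) := by group
    rw [this]
    exact N.mul_mem (hS0N (h1 s hs)) (hΦN (conj_mem h2 hf))
  have hSN : S ≤ normalizer (N : Set X) := fun g hg => hnorm g (fun s hs => by
    rw [hS0]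
    exact ⟨S.mul_mem (S.mul_mem hg (hS0S hs)) (S.inv_mem hg), cent_conj (hSW hg) (hS0W hs)⟩)
    (hΦnorm S hSW hg)
  have hWN : W ≤ normalizer (N : Set X) := fun g hg => hnorm g (fun s hs => by
    rw [← hcomm s hs g hg, mul_inv_cancel_right]
    exact hs) (hΦnorm W le_normalizer hg)
  have hPN : P ≤ normalizer (N : Set X) := fun g hg => hnorm g (fun s hs => by
    rw [hS0]
    exact ⟨conj_mem (hPS hg) (hS0S hs), cent_conj (hPW hg) (hS0W hs)⟩)
    (hΦnorm P hPW hg)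
  obtain ⟨M, hM⟩ : ∃ M : Subgroup X, M = normalizer (N : Set X) := ⟨_, rfl⟩
  rw [← hM] at hSN hWN hPN
  have hNn : (N.subgroupOf M).Normal := by rw [hM]; exact normal_in_normalizer
  have hfin : Finite (M ⧸ N.subgroupOf M) := inferInstance
  -- the images
  have hSne : im M N S ≠ ⊥ := by
    intro h0
    apply hcon
    intro s hs
    have h1 : mk N ⟨s, hSN hs⟩ ∈ im M N S := mem_im.2 ⟨⟨s, hSN hs⟩, hs, rfl⟩
    rw [h0, mem_bot, mk_eq_one] at h1
    exact hS0W (hNS s hs h1)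
  have hSbar : IsPGroup a (im M N S) := im_isPGroup hS
  have hVbar : IsPGroup b (im M N W) := im_isPGroup hW
  -- the subgroup `A'`
  let A' : Subgroup (M ⧸ N.subgroupOf M) :=
    { carrier := {z | z ∈ im M N S ∧ (∀ t ∈ im M N S, z * t = t * z) ∧ z ^ a = 1}
      one_mem' := ⟨one_mem _, fun t _ => by rw [one_mul, mul_one], one_pow _⟩
      mul_mem' := by
        rintro z z' ⟨h1, h2, h3⟩ ⟨h1', h2', h3'⟩
        refine ⟨mul_mem h1 h1', fun t ht => ?_, ?_⟩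
        · rw [mul_assoc, h2' t ht, ← mul_assoc, h2 t ht, mul_assoc]
        · have hc : Commute z z' := h2 z' h1'
          rw [hc.mul_pow, h3, h3', one_mul]
      inv_mem' := by
        rintro z ⟨h1, h2, h3⟩
        refine ⟨inv_mem h1, fun t ht => ?_, by rw [inv_pow, h3, inv_one]⟩
        have hc : Commute z t := h2 t ht
        exact hc.inv_left.eq }
  have hA'S : A' ≤ im M N S := fun z hz => hz.1
  have hA'ne : A' ≠ ⊥ := by
    have hnt : Nontrivial (im M N S) := (nontrivial_iff_ne_bot _).2 hSne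
    have hcn := hSbar.center_nontrivial
    have hcp : IsPGroup a (center (im M N S)) := hSbar.to_subgroup _
    obtain ⟨z, hz⟩ : ∃ z : center (im M N S), orderOf z = a := by
      have hd : a ∣ Nat.card (center (im M N S)) := by
        obtain ⟨n, hn⟩ := IsPGroup.iff_card.1 hcp
        have h1 : 1 < Nat.card (center (im M N S)) := Finite.one_lt_card
        rw [hn] at h1 ⊢
        refine dvd_pow_self a ?_
        rintro rfl
        simp at h1
      exact exists_prime_orderOf_dvd_card' a hd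
    intro h0
    have h1 : ((z : im M N S) : M ⧸ N.subgroupOf M) ∈ A' := by
      refine ⟨(z : im M N S).2, fun t ht => ?_, ?_⟩
      · have := mem_center_iff.1 z.2 ⟨t, ht⟩
        exact (congrArg Subtype.val this).symm
      · have h2 : z ^ a = 1 := by rw [← hz]; exact pow_orderOf_eq_one z
        have h3 := congrArg (fun y : center (im M N S) => ((y : im M N S) : M ⧸ N.subgroupOf M)) h2
        exact h3
    rw [h0, mem_bot] at h1
    have h2 : z = 1 := Subtype.ext (Subtype.ext h1)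
    rw [h2, orderOf_one] at hz
    exact ha.one_lt.ne hz
  have hnormim : ∀ (H K : Subgroup X), H ≤ M → H ≤ normalizer (K : Set X) →
      im M N H ≤ normalizer (im M N K : Set (M ⧸ N.subgroupOf M)) := by
    rintro H K hHM hHK _ ⟨h, hh, rfl⟩
    refine mem_normalizer_of ?_
    rintro _ ⟨k, hk, rfl⟩
    refine mem_im.2 ⟨h * k * h⁻¹, conj_mem (hHK hh) hk, ?_⟩
    show (QuotientGroup.mk' _) (h * k * h⁻¹) = _
    rw [map_mul, map_mul, map_inv]
  refine hcore (V := im M N W) (A := A') (P := im M N P) (x := mk N ⟨x, hPN hxP⟩) ha hb hab hp hq hpq hap haq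
    hbp hbq hVbar ?_ (hSbar.to_le hA'S) ?_ ?_ hA'ne ?_ ?_ (hnormim P W hPN hPW) ?_ ?_ ?_ ?_ ?_ ?_
  · -- `V` is abelian
    rintro _ ⟨w, hw, rfl⟩ _ ⟨w', hw', rfl⟩
    show mk N w * mk N w' = mk N w' * mk N w
    rw [mk_mul, mk_mul, mk_eq]
    apply hΦN
    rw [hΦ]
    have h1 : ⁅(⟨w', hw'⟩ : W)⁻¹, (⟨w, hw⟩ : W)⁻¹⁆ ∈ frattini W :=
      Cfsg.Agent.Lib.FrattiniBasic.commutator_le_frattini hW (commutator_mem_commutator (mem_top _) (mem_top _))
    refine ⟨_, h1, ?_⟩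
    show (w' : X)⁻¹ * (w : X)⁻¹ * (w' : X)⁻¹⁻¹ * (w : X)⁻¹⁻¹ = ((w : X) * w')⁻¹ * ((w' : X) * w)
    group
  · exact fun z hz z' hz' => hz.2.1 z' hz'.1
  · exact fun z hz => hz.2.2
  · exact hA'S.trans (hnormim S W hSN hSW)
  · -- faithful
    rw [eq_bot_iff]
    rintro z ⟨hz, hzc⟩
    obtain ⟨s, hs, rfl⟩ := mem_im.1 (hA'S hz)
    let T : Subgroup X :=
      { carrier := {s | s ∈ S ∧ ∀ w ∈ W, s * w * s⁻¹ * w⁻¹ ∈ Φ}
        one_mem' := ⟨one_mem _, fun w _ => by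
          have : (1 : X) * w * 1⁻¹ * w⁻¹ = 1 := by group
          rw [this]
          exact one_mem _⟩
        mul_mem' := by
          rintro s t ⟨h1, h2⟩ ⟨h1', h2'⟩
          refine ⟨mul_mem h1 h1', fun w hw => ?_⟩
          have h3 : t * w * t⁻¹ ∈ W := conj_mem (hSW h1') hw
          have : s * t * w * (s * t)⁻¹ * w⁻¹ = (s * (t * w * t⁻¹) * s⁻¹ * (t * w * t⁻¹)⁻¹) * (t * w * t⁻¹ * w⁻¹) := by
            group
          rw [this]
          exact mul_mem (h2 _ h3) (h2' w hw)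
        inv_mem' := by
          rintro s ⟨h1, h2⟩
          refine ⟨inv_mem h1, fun w hw => ?_⟩
          have h3 : s⁻¹ * w * s⁻¹⁻¹ ∈ W := conj_mem (hSW (inv_mem h1)) hw
          have h5 := inv_mem (h2 _ h3)
          have : s⁻¹ * w * s⁻¹⁻¹ * w⁻¹ = (s * (s⁻¹ * w * s⁻¹⁻¹) * s⁻¹ * (s⁻¹ * w * s⁻¹⁻¹)⁻¹)⁻¹ := by group
          rw [this]
          exact h5 }
    have hTW : T ≤ centralizer (W : Set X) := by
      refine Cfsg.Agent.S0029.result T W (fun t ht => hSW ht.1) ?_ ?_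
      · obtain ⟨m, hm⟩ := IsPGroup.iff_card.1 (hS.to_le (fun t ht => ht.1 : T ≤ S))
        obtain ⟨n, hn⟩ := IsPGroup.iff_card.1 (hW.to_subgroup (frattini W))
        rw [hm, hn]
        exact Nat.Coprime.pow m n ((Nat.coprime_primes ha hb).2 hab)
      · intro t ht w hw
        rw [← hΦ]
        exact ht.2 w hw
    have hsT : (s : X) ∈ T := by
      refine ⟨hs, fun w hw => ?_⟩
      refine hNW _ ?_ ?_
      · exact mul_mem (conj_mem (hSW hs) hw) (inv_mem hw)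
      · have h1 := (mem_centralizer_iff.1 hzc) (mk N ⟨w, hWN hw⟩) (mem_im.2 ⟨⟨w, hWN hw⟩, hw, rfl⟩)
        rw [mk_mul, mk_mul, mk_eq] at h1
        have h3 : ((⟨w, hWN hw⟩ * s : M) : X)⁻¹ * ((s * ⟨w, hWN hw⟩ : M) : X) = (s : X)⁻¹ * w⁻¹ * (s * w) := by
          push_cast
          group
        rw [h3] at h1
        have h5 : (s : X) * w * (s : X)⁻¹ * w⁻¹ = (w * s) * ((s : X)⁻¹ * w⁻¹ * (s * w)) * (w * s)⁻¹ := by group
        rw [h5]
        refine conj_mem ?_ h1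
        rw [← hM]
        exact M.mul_mem (hWN hw) s.2
    rw [mem_bot, mk_eq_one]
    apply hS0N
    rw [hS0]
    exact ⟨hs, hTW hsT⟩
  · -- `P` normalises `A'`
    intro g hg
    have hgS := hnormim P S hPN hPS hg
    refine mem_normalizer_of ?_
    rintro z ⟨h1, h2, h3⟩
    refine ⟨conj_mem hgS h1, fun t ht => ?_, ?_⟩
    · have h5 : g⁻¹ * t * g⁻¹⁻¹ ∈ im M N S := conj_mem (inv_mem hgS) ht
      have h6 := h2 _ h5
      rw [inv_inv] at h6
      have e1 : g * z * g⁻¹ * t = g * (z * (g⁻¹ * t * g)) * g⁻¹ := by group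
      rw [e1, h6]
      group
    · rw [conj_pow, h3, mul_one, mul_inv_cancel]
  · exact mem_im.2 ⟨⟨x, hPN hxP⟩, hxP, rfl⟩
  · -- the order of `x`
    refine Nat.dvd_antisymm ?_ ?_
    · refine orderOf_dvd_of_pow_eq_one ?_
      rw [mk_pow, mk_eq_one]
      have : ((⟨x, hPN hxP⟩ ^ (p * q) : M) : X) = 1 := by
        show x ^ (p * q) = 1
        rw [← hx]
        exact pow_orderOf_eq_one x
      rw [this]
      exact one_mem _
    · have h1 := pow_orderOf_eq_one (mk N ⟨x, hPN hxP⟩)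
      rw [mk_pow, mk_eq_one] at h1
      set k := orderOf (mk N (⟨x, hPN hxP⟩ : M)) with hk
      have h2 : x ^ k ∈ N := h1
      obtain ⟨s, hs, f, hf, hsf⟩ := hNelt _ h2
      obtain ⟨m, hm⟩ := hS ⟨s, hS0S hs⟩
      obtain ⟨n, hn⟩ := hW ⟨f, hΦW hf⟩
      have hm' : s ^ a ^ m = 1 := congrArg Subtype.val hm
      have hn' : f ^ b ^ n = 1 := congrArg Subtype.val hn
      have hc : Commute s f := hcomm s hs f (hΦW hf)
      have h3 : (x ^ k) ^ (a ^ m * b ^ n) = 1 := by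
        rw [hsf, hc.mul_pow, pow_mul, hm', one_pow, one_mul, mul_comm (a ^ m), pow_mul, hn', one_pow]
      have h5 : orderOf (x ^ k) ∣ p * q := by
        rw [← hx]
        exact orderOf_pow_dvd k
      have h6 := Nat.dvd_gcd (orderOf_dvd_of_pow_eq_one h3) h5
      have h7 : Nat.gcd (a ^ m * b ^ n) (p * q) = 1 := by
        have c1 : Nat.Coprime (a ^ m) p := Nat.Coprime.pow_left m ((Nat.coprime_primes ha hp).2 hap)
        have c2 : Nat.Coprime (a ^ m) q := Nat.Coprime.pow_left m ((Nat.coprime_primes ha hq).2 haq)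
        have c3 : Nat.Coprime (b ^ n) p := Nat.Coprime.pow_left n ((Nat.coprime_primes hb hp).2 hbp)
        have c4 : Nat.Coprime (b ^ n) q := Nat.Coprime.pow_left n ((Nat.coprime_primes hb hq).2 hbq)
        exact Nat.Coprime.mul_left (c1.mul_right c2) (c3.mul_right c4)
      rw [h7, Nat.dvd_one, orderOf_eq_one_iff] at h6
      rw [← hx]
      exact orderOf_dvd_of_pow_eq_one h6
  · -- no fixed points on `V`
    rw [eq_bot_iff]
    rintro _ ⟨⟨w, hw, rfl⟩, hwc⟩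
    have h1 : mk N w * mk N ⟨x, hPN hxP⟩ = mk N ⟨x, hPN hxP⟩ * mk N w := mem_centralizer_singleton_iff.1 hwc
    rw [mk_mul, mk_mul, mk_eq] at h1
    have h3 : (((w : M) * ⟨x, hPN hxP⟩ : M) : X)⁻¹ * ((⟨x, hPN hxP⟩ * (w : M) : M) : X) =
        x⁻¹ * ((w : X)⁻¹ * (x * w * x⁻¹)) * x⁻¹⁻¹ := by
      push_cast
      group
    rw [h3] at h1
    have h5 : (w : X)⁻¹ * (x * w * x⁻¹) ∈ N := by
      have := conj_mem (H := N) (g := x) (by rw [← hM]; exact hPN hxP) h1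
      have e : x * (x⁻¹ * ((w : X)⁻¹ * (x * w * x⁻¹)) * x⁻¹⁻¹) * x⁻¹ = (w : X)⁻¹ * (x * w * x⁻¹) := by group
      rwa [e] at this
    have h6 : (w : X)⁻¹ * (x * w * x⁻¹) ∈ Φ := hNW _ (mul_mem (inv_mem hw) (conj_mem (hPW hxP) hw)) h5
    have h7 := mem_of_comm hΦW (hΦnorm P hPW hxP) hxW hw h6
    rw [mem_bot]
    exact mk_eq_one.2 (hΦN h7)
  · -- no fixed points on `A'`
    rw [eq_bot_iff]
    rintro z ⟨hz, hzc⟩
    obtain ⟨s, hs, rfl⟩ := mem_im.1 (hA'S hz)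
    have h1 : mk N s * mk N ⟨x, hPN hxP⟩ = mk N ⟨x, hPN hxP⟩ * mk N s := mem_centralizer_singleton_iff.1 hzc
    rw [mk_mul, mk_mul, mk_eq] at h1
    have h3 : (((s : M) * ⟨x, hPN hxP⟩ : M) : X)⁻¹ * ((⟨x, hPN hxP⟩ * (s : M) : M) : X) =
        x⁻¹ * ((s : X)⁻¹ * (x * s * x⁻¹)) * x⁻¹⁻¹ := by
      push_cast
      group
    rw [h3] at h1
    have h5 : (s : X)⁻¹ * (x * s * x⁻¹) ∈ N := by
      have := conj_mem (H := N) (g := x) (by rw [← hM]; exact hPN hxP) h1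
      have e : x * (x⁻¹ * ((s : X)⁻¹ * (x * s * x⁻¹)) * x⁻¹⁻¹) * x⁻¹ = (s : X)⁻¹ * (x * s * x⁻¹) := by group
      rwa [e] at this
    have h6 : (s : X)⁻¹ * (x * s * x⁻¹) ∈ S0 := hNS _ (mul_mem (inv_mem hs) (conj_mem (hPS hxP) hs)) h5
    have hxS0 : x ∈ normalizer (S0 : Set X) := by
      refine mem_normalizer_of fun t ht => ?_
      rw [hS0]
      exact ⟨conj_mem (hPS hxP) (hS0S ht), cent_conj (hPW hxP) (hS0W ht)⟩
    have h7 := mem_of_comm hS0S hxS0 hxS hs h6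
    rw [mem_bot]
    exact mk_eq_one.2 (hS0N h7)
  · -- generation
    intro C' hC'P hC'
    have hC := hP (P ⊓ (C'.comap (QuotientGroup.mk' (N.subgroupOf M))).map M.subtype) inf_le_left (by
      intro g hg
      have hgM := hPN hg
      have hxM := hPN hxP
      rcases hC' (mk N ⟨g, hgM⟩) (mem_im.2 ⟨⟨g, hgM⟩, hg, rfl⟩) with h | h
      · left
        refine ⟨P.mul_mem (P.mul_mem hg (P.pow_mem hxP p)) (P.inv_mem hg), ⟨⟨g, hgM⟩ * ⟨x, hxM⟩ ^ p * ⟨g, hgM⟩⁻¹, ?_, rfl⟩⟩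
        show mk N (⟨g, hgM⟩ * ⟨x, hxM⟩ ^ p * ⟨g, hgM⟩⁻¹) ∈ C'
        rw [← mk_mul, ← mk_mul, ← mk_pow, ← mk_inv]
        exact h
      · right
        refine ⟨P.mul_mem (P.mul_mem hg (P.pow_mem hxP q)) (P.inv_mem hg), ⟨⟨g, hgM⟩ * ⟨x, hxM⟩ ^ q * ⟨g, hgM⟩⁻¹, ?_, rfl⟩⟩
        show mk N (⟨g, hgM⟩ * ⟨x, hxM⟩ ^ q * ⟨g, hgM⟩⁻¹) ∈ C'
        rw [← mk_mul, ← mk_mul, ← mk_pow, ← mk_inv]
        exact h)
    refine le_antisymm hC'P ?_
    rintro _ ⟨g, hg, rfl⟩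
    have h1 : (g : X) ∈ P ⊓ (C'.comap (QuotientGroup.mk' (N.subgroupOf M))).map M.subtype := by rw [hC]; exact hg
    obtain ⟨g', hg', hgg'⟩ := h1.2
    have : g' = g := Subtype.ext hgg'
    rw [← this]
    exact hg'

end Cfsg.Agent.H984.S3530.LemX
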